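import Cfsg.Agent.H217.Odm.Eng
import Cfsg.Agent.H265.SuzCent
import Cfsg.Agent.H393.Iso.Suz
import Cfsg.Agent.H874.Tor.Tools
import Cfsg.Agent.NotCT.Orders

/-!
# S4785 (ODDM): the row `Suz` (helper54, task 3121)
-/

set_option autoImplicit false
set_option maxRecDepth 100000

namespace Cfsg.Agent.H54.Odm.Suz

open Subgroup Cfsg Cfsg.Agent.OrdDiv Cfsg.Agent.H217.Odm Cfsg.Agent.H453.OddM Cfsg.Agent.H257.El

universe u v

/-- the order of a centralizer is transported by an isomorphism -/
theorem card_cent_congr {G : Type u} {H : Type v} [Group G] [Group H] (e : G ≃* H) (x : G) :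
    Nat.card (centralizer ({x} : Set G)) = Nat.card (centralizer ({e x} : Set H)) := by
  refine Nat.card_congr (e.toEquiv.subtypeEquiv fun g => ?_)
  rw [mem_centralizer_singleton_iff, mem_centralizer_singleton_iff]
  change g * x = x * g ↔ e g * e x = e x * e g
  rw [← map_mul, ← map_mul, e.apply_eq_iff_eq]

/-- from the order of the centralizers: elements of order `r` are real -/
theorem realP_of_cent {G : Type*} [Group G] [Finite G] {r n c e : ℕ} (hr : r.Prime) (hn : Nat.card G = r * n)
    (hrn : n % r ≠ 0) (hc : ∀ x : G, orderOf x = r → Nat.card (centralizer ({x} : Set G)) = r * c)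
    (he : e < r) (hmod : (c * e) % r = n % r) (hev : Even e) : RealP G r := by
  have hp : Fact r.Prime := ⟨hr⟩
  obtain ⟨x, hx⟩ := exists_prime_orderOf_dvd_card' (G := G) r (by rw [hn]; exact dvd_mul_right _ _)
  exact ⟨x, hx, (norm_of_cent hr hn hrn hx (hc x hx) he hmod).2 hev⟩

section model

open Cfsg.Spor
open Cfsg.Agent.SporadicRecognition.SuzOrder Cfsg.Agent.SuzThree.Basic Cfsg.Agent.SuzThree.CentA
  Cfsg.Agent.KFacts.SuzLFour Cfsg.Agent.KFacts.SuzTwoB Cfsg.Agent.CTwoTab.SuzPlane
open Cfsg.Agent.H393.Iso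

theorem na13_suz_model [Finite Cfsg.Spor.Suz] : NA 13 Cfsg.Spor.Suz := by
  refine NA.of_isConj (fun s => s = z0 ∨ s = e0) (fun t ht ht1 => ?_) ?_
  · rcases CTwoTab.Suz.classes ht ht1 with h | h
    · exact ⟨_, Or.inl rfl, h⟩
    · exact ⟨_, Or.inr rfl, h⟩
  · rintro s (rfl | rfl) x hx hxs
    · exact false_of_large (by norm_num) (by norm_num) KFacts.SuzLarge.large (k := 7) (d := 6)
        KFacts.SuzR.card_R (by norm_num) (by decide +kernel) hx hxs
    · refine false_of_pow_mem (by norm_num) (L := VL) ?_ hx (n := 2) (by norm_num) ?_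
      · rw [card_VL, card_L]
        norm_num
      · rw [pow_two]
        exact Subgroup.mul_self_mem_of_index_two idx.1 (⟨x, mem_CE.2 hxs⟩ : ↥CE)

theorem suz_cent_eleven {v : Suz} (hv : orderOf v = 11) : Nat.card (centralizer ({v} : Set Suz)) = 11 := by
  have hfin := H265.SuzEven.finSuz
  rcases H874.Tor.ev_or_eq (by norm_num) hv (H265.SuzCent.dvd_eleven hv) with h | h
  · obtain ⟨z, hz, hzv⟩ := h
    exact absurd hzv.symm (na_suz_model v z hv hz)
  · exact h

theorem suz_cent_thirteen {v : Suz} (hv : orderOf v = 13) : Nat.card (centralizer ({v} : Set Suz)) = 13 := by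
  have hfin := H265.SuzEven.finSuz
  rcases H874.Tor.ev_or_eq (by norm_num) hv (H265.SuzCent.dvd_thirteen hv) with h | h
  · obtain ⟨z, hz, hzv⟩ := h
    exact absurd hzv.symm (na13_suz_model v z hv hz)
  · exact h

end model

/-- **the row `Suz`** -/
theorem row (tab : OrderTable.{u}) (known : Known.{u}) {T : Type u} [Group T] (h : Cfsg.Spor.IsoSuz T) :
    Row T := by
  have hN := NotCT.Orders.suz h
  have hfin : Finite T := Nat.finite_of_card_ne_zero (by rw [hN]; norm_num)
  obtain ⟨e⟩ := h
  have hc11 : ∀ x : T, orderOf x = 11 → Nat.card (centralizer ({x} : Set T)) = 11 * 1 := by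
    intro x hx
    rw [card_cent_congr e, suz_cent_eleven (by rw [MulEquiv.orderOf_eq, hx])]
  have hc13 : ∀ x : T, orderOf x = 13 → Nat.card (centralizer ({x} : Set T)) = 13 * 1 := by
    intro x hx
    rw [card_cent_congr e, suz_cent_thirteen (by rw [MulEquiv.orderOf_eq, hx])]
  have h11 : RealP T 11 := realP_of_cent (n := 40758681600) (c := 1) (e := 10) (by norm_num) (by rw [hN]) (by norm_num)
    hc11 (by norm_num) (by norm_num) (by decide)
  have h13 : RealP T 13 := realP_of_cent (n := 34488115200) (c := 1) (e := 6) (by norm_num) (by rw [hN]) (by norm_num)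
    hc13 (by norm_num) (by norm_num) (by decide)
  refine row_of_two (r := 11) (nu := 10) (ss := [13]) (l := [(2, 13), (3, 7), (5, 2), (7, 1), (11, 1), (13, 1)]) tab known
    hN (by norm_num) h11 ?_ ?_ (by decide +kernel)
  · intro x hx
    exact (norm_of_cent (n := 40758681600) (c := 1) (e := 10) (by norm_num) (by rw [hN]) (by norm_num) hx (hc11 x hx)
      (by norm_num) (by norm_num)).1
  · intro s hs
    rw [List.mem_singleton] at hs
    subst hs
    exact ⟨by norm_num, h13, noOrd_of_cent (by norm_num) (fun x hx => by rw [hc11 x hx]) (by norm_num) (by norm_num)⟩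

end Cfsg.Agent.H54.Odm.Suz
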